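import Mathlib

/-!
# Derived series inside an ambient group and derived length of `2`-subgroups of symmetric groups
-/

set_option autoImplicit false
set_option linter.unusedSectionVars false

namespace Cfsg.Agent.Lib.DerLen.Basic

open Equiv
open scoped commutatorElement

variable {G H : Type*} [Group G] [Group H]

/-- The derived series of a subgroup, as subgroups of the ambient group. -/
def dser (X : Subgroup G) : ℕ → Subgroup G
  | 0 => X
  | d + 1 => ⁅dser X d, dser X d⁆

@[simp] theorem dser_zero (X : Subgroup G) : dser X 0 = X := rfl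

theorem dser_succ (X : Subgroup G) (d : ℕ) : dser X (d + 1) = ⁅dser X d, dser X d⁆ := rfl

theorem map_derivedSeries (X : Subgroup G) (d : ℕ) :
    (derivedSeries X d).map X.subtype = dser X d := by
  induction d with
  | zero =>
    rw [derivedSeries_zero, dser_zero, ← MonoidHom.range_eq_map, Subgroup.range_subtype]
  | succ d ih =>
    rw [derivedSeries_succ, dser_succ, Subgroup.map_commutator, ih]

theorem derivedSeries_eq_bot_iff (X : Subgroup G) (d : ℕ) :
    derivedSeries X d = ⊥ ↔ dser X d = ⊥ := by
  rw [← map_derivedSeries]
  exact (Subgroup.map_eq_bot_iff_of_injective _ Subtype.val_injective).symm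

theorem dser_mono {X Y : Subgroup G} (h : X ≤ Y) (d : ℕ) : dser X d ≤ dser Y d := by
  induction d with
  | zero => exact h
  | succ d ih => exact Subgroup.commutator_mono ih ih

theorem comm_self_le (X : Subgroup G) : ⁅X, X⁆ ≤ X := by
  rw [Subgroup.commutator_le]
  intro a ha b hb
  rw [commutatorElement_def]
  exact X.mul_mem (X.mul_mem (X.mul_mem ha hb) (X.inv_mem ha)) (X.inv_mem hb)

theorem dser_le (X : Subgroup G) (d : ℕ) : dser X d ≤ X := by
  induction d with
  | zero => exact le_rfl
  | succ d ih => exact (comm_self_le _).trans ih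

theorem dser_map (f : G →* H) (X : Subgroup G) (d : ℕ) : (dser X d).map f = dser (X.map f) d := by
  induction d with
  | zero => rfl
  | succ d ih => rw [dser_succ, dser_succ, Subgroup.map_commutator, ih]

theorem dser_top (d : ℕ) : dser (⊤ : Subgroup G) d = derivedSeries G d := by
  induction d with
  | zero => rfl
  | succ d ih => rw [dser_succ, derivedSeries_succ, ih]

theorem dser_anti (X : Subgroup G) {a b : ℕ} (h : a ≤ b) : dser X b ≤ dser X a := by
  induction b, h using Nat.le_induction with
  | base => exact le_rfl
  | succ b _ ih => exact (comm_self_le _).trans ih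

theorem derivedSeries_eq_bot_of_mulEquiv (e : G ≃* H) {d : ℕ} (h : derivedSeries G d = ⊥) :
    derivedSeries H d = ⊥ := by
  rw [← map_derivedSeries_eq (f := e.toMonoidHom) e.surjective, h, Subgroup.map_bot]

section Orbit

/-- An index-two subgroup contains all commutators. -/
theorem commutator_le_of_index_two {M : Subgroup G} (hM : M.index = 2) : commutator G ≤ M := by
  rw [commutator_def, Subgroup.commutator_le]
  intro a _ b _
  rw [commutatorElement_def, Subgroup.mul_mem_iff_of_index_two hM, Subgroup.mul_mem_iff_of_index_two hM,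
    Subgroup.mul_mem_iff_of_index_two hM, Subgroup.inv_mem_iff, Subgroup.inv_mem_iff]
  tauto

/-- The derived series of a group modulo an index-two subgroup. -/
theorem derivedSeries_succ_le_of_index_two {M : Subgroup G} (hM : M.index = 2) (j : ℕ) :
    derivedSeries G (j + 1) ≤ (derivedSeries M j).map M.subtype := by
  induction j with
  | zero =>
    rw [derivedSeries_zero, ← MonoidHom.range_eq_map, Subgroup.range_subtype, derivedSeries_succ,
      derivedSeries_zero]
    exact commutator_le_of_index_two hM
  | succ j ih =>
    rw [derivedSeries_succ, derivedSeries_succ M j, Subgroup.map_commutator]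
    exact Subgroup.commutator_mono ih ih

/-- A `2`-group with an orbit of size `2 ^ j`: the `j`-th derived group fixes the point. -/
theorem derivedSeries_le_stabilizer {X : Type*} (j : ℕ) :
    ∀ (T : Type) [Group T] [Finite T] [MulAction T X], IsPGroup 2 T → ∀ x : X,
      Nat.card (MulAction.orbit T x) = 2 ^ j → derivedSeries T j ≤ MulAction.stabilizer T x := by
  classical
  induction j with
  | zero =>
    intro T _ _ _ _ x hx
    intro g _
    rw [pow_zero, Nat.card_eq_one_iff_unique] at hx
    have h1 : (⟨g • x, MulAction.mem_orbit x g⟩ : MulAction.orbit T x) = ⟨x, MulAction.mem_orbit_self x⟩ :=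
      hx.1.elim _ _
    exact congrArg Subtype.val h1
  | succ j ih =>
    intro T _ _ _ hT x hx
    haveI : Fact (Nat.Prime 2) := ⟨Nat.prime_two⟩
    -- orders
    obtain ⟨t, ht⟩ := IsPGroup.iff_card.1 hT
    let S := MulAction.stabilizer T x
    have hidx : S.index = 2 ^ (j + 1) := by
      rw [← hx]
      exact (Nat.card_congr (MulAction.orbitEquivQuotientStabilizer T x)).symm
    have hS : Nat.card S * 2 ^ (j + 1) = 2 ^ t := by
      rw [← hidx, Subgroup.card_mul_index, ht]
    have hjt : j + 1 ≤ t := by
      by_contra hcon
      have h1 : (2 : ℕ) ^ t < 2 ^ (j + 1) := Nat.pow_lt_pow_right (by norm_num) (by omega)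
      have h2 : 0 < Nat.card S := Nat.card_pos
      nlinarith
    have hS' : Nat.card S = 2 ^ (t - (j + 1)) := by
      have h3 : (2 : ℕ) ^ t = 2 ^ (t - (j + 1)) * 2 ^ (j + 1) := by
        rw [← pow_add]
        congr 1
        omega
      rw [h3] at hS
      exact Nat.eq_of_mul_eq_mul_right (by positivity) hS
    obtain ⟨M, hM, hSM⟩ := Sylow.exists_subgroup_card_pow_prime_le (G := T) 2 (m := t - 1)
      (by rw [ht]; exact pow_dvd_pow 2 (by omega)) S hS' (by omega)
    have hMi : M.index = 2 := by
      have h1 := Subgroup.card_mul_index M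
      rw [hM, ht] at h1
      have h3 : (2 : ℕ) ^ t = 2 ^ (t - 1) * 2 := by
        rw [← pow_succ]
        congr 1
        omega
      rw [h3] at h1
      exact Nat.eq_of_mul_eq_mul_left (by positivity) h1
    have hstab : MulAction.stabilizer M x = S.subgroupOf M := by
      ext y
      rw [Subgroup.mem_subgroupOf]
      rfl
    have hstabcard : Nat.card (MulAction.stabilizer M x) = 2 ^ (t - (j + 1)) := by
      rw [hstab, Nat.card_congr (Subgroup.subgroupOfEquivOfLe hSM).toEquiv, hS']
    have horb : Nat.card (MulAction.orbit M x) = 2 ^ j := by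
      have h1 : Nat.card (MulAction.orbit M x) = (MulAction.stabilizer M x).index :=
        Nat.card_congr (MulAction.orbitEquivQuotientStabilizer M x)
      have h3 := Subgroup.card_mul_index (MulAction.stabilizer M x)
      rw [← h1, hstabcard, hM] at h3
      have h4 : (2 : ℕ) ^ (t - 1) = 2 ^ (t - (j + 1)) * 2 ^ j := by
        rw [← pow_add]
        congr 1
        omega
      rw [h4] at h3
      exact Nat.eq_of_mul_eq_mul_left (by positivity) h3
    have hMp : IsPGroup 2 M := hT.to_subgroup M
    have h5 := ih M hMp x horb
    intro g hg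
    obtain ⟨y, hy, rfl⟩ := derivedSeries_succ_le_of_index_two hMi j hg
    exact h5 hy

/-- A `2`-subgroup of a symmetric group on `n` points has derived length at most `log₂ n`. -/
theorem derivedSeries_perm_eq_bot {I : Type} [Fintype I] [DecidableEq I] (T : Subgroup (Perm I))
    (hT : IsPGroup 2 T) : derivedSeries T (Nat.log 2 (Fintype.card I)) = ⊥ := by
  classical
  haveI : Fact (Nat.Prime 2) := ⟨Nat.prime_two⟩
  rw [eq_bot_iff]
  intro g hg
  rw [Subgroup.mem_bot]
  apply Subtype.ext
  ext x
  -- the size of the orbit
  have h1 : Nat.card (MulAction.orbit T x) = (MulAction.stabilizer T x).index :=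
    Nat.card_congr (MulAction.orbitEquivQuotientStabilizer T x)
  obtain ⟨t, ht⟩ := IsPGroup.iff_card.1 hT
  have h3 : Nat.card (MulAction.orbit T x) ∣ 2 ^ t := by
    rw [h1, ← ht]
    exact Subgroup.index_dvd_card _
  obtain ⟨j, _, hj⟩ := (Nat.dvd_prime_pow Nat.prime_two).1 h3
  have h4 : 2 ^ j ≤ Fintype.card I := by
    rw [← hj, ← Nat.card_eq_fintype_card]
    exact Nat.card_le_card_of_injective _ Subtype.val_injective
  have hjk : j ≤ Nat.log 2 (Fintype.card I) := by
    have hne : Fintype.card I ≠ 0 := by
      intro h
      rw [h] at h4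
      have h8 : 0 < 2 ^ j := by positivity
      omega
    exact Nat.le_log_of_pow_le (by norm_num) h4
  have h5 := derivedSeries_le_stabilizer j T hT x hj
  have h6 : derivedSeries T (Nat.log 2 (Fintype.card I)) ≤ derivedSeries T j := by
    rw [← dser_top, ← dser_top]
    exact dser_anti _ hjk
  have h7 : g ∈ MulAction.stabilizer T x := h5 (h6 hg)
  exact h7

end Orbit

end Cfsg.Agent.Lib.DerLen.Basic
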