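import Mathlib
import Cfsg.Agent.Lib.OrthSyl.Core
import Cfsg.Agent.Lib.DerLen.Basic

/-!
# Derived length of wreath-type subgroups
-/

set_option autoImplicit false
set_option linter.unusedSectionVars false

namespace Cfsg.Agent.Lib.DerLen.Wreath

open Equiv Cfsg.Agent.Lib.OrthSyl.Core Cfsg.Agent.Lib.DerLen.Basic
open scoped commutatorElement

variable {G D I : Type*} [Group G] [Group D] [Fintype I] [DecidableEq I]
  {c : (I → D) × PUnit.{1} →* G} {π : Perm I →* G}

theorem move (hw : IsWreath c π) (s : Perm I) (n : (I → D) × PUnit.{1}) :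
    π s * c n = c (fun i => n.1 (s⁻¹ i), n.2) * π s := by
  rw [← hw s n]
  group

section Upper

/-- The commutator of two elements of the wreath subgroup. -/
theorem commutator_form (hw : IsWreath c π) (n m : (I → D) × PUnit.{1}) (s t : Perm I) :
    ∃ k, ⁅c n * π s, c m * π t⁆ = c k * π ⁅s, t⁆ := by
  have h1 : (c n * π s) * (c m * π t) = c (n * (fun i => m.1 (s⁻¹ i), m.2)) * π (s * t) := by
    rw [map_mul, map_mul, mul_assoc (c n), ← mul_assoc (π s), move hw]
    group
  have h2 : (c m * π t) * (c n * π s) = c (m * (fun i => n.1 (t⁻¹ i), n.2)) * π (t * s) := by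
    rw [map_mul, map_mul, mul_assoc (c m), ← mul_assoc (π t), move hw]
    group
  set A := n * (fun i => m.1 (s⁻¹ i), m.2) with hA
  set B := m * (fun i => n.1 (t⁻¹ i), n.2) with hB
  have h3 : ⁅c n * π s, c m * π t⁆ = (c n * π s) * (c m * π t) * ((c m * π t) * (c n * π s))⁻¹ := by
    rw [commutatorElement_def]
    group
  have h4 : π (s * t) * (π (t * s))⁻¹ = π ⁅s, t⁆ := by
    rw [← map_inv, ← map_mul]
    congr 1
  rw [h3, h1, h2, mul_inv_rev, mul_assoc, ← mul_assoc (π (s * t)), h4, ← map_inv (c) B, move hw]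
  refine ⟨A * (fun i => B⁻¹.1 ((⁅s, t⁆)⁻¹ i), B⁻¹.2), ?_⟩
  rw [map_mul c A, mul_assoc]

theorem commutator_wreath_le (hw : IsWreath c π) (X : Subgroup (Perm I)) :
    ⁅wreathSub hw X, wreathSub hw X⁆ ≤ wreathSub hw ⁅X, X⁆ := by
  rw [Subgroup.commutator_le]
  rintro _ ⟨n, s, hs, rfl⟩ _ ⟨m, t, ht, rfl⟩
  obtain ⟨k, hk⟩ := commutator_form hw n m s t
  rw [hk]
  exact ⟨k, _, Subgroup.commutator_mem_commutator hs ht, rfl⟩

theorem dser_wreath_le (hw : IsWreath c π) (X : Subgroup (Perm I)) (d : ℕ) :
    dser (wreathSub hw X) d ≤ wreathSub hw (dser X d) := by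
  induction d with
  | zero => exact le_rfl
  | succ d ih =>
    rw [dser_succ, dser_succ]
    exact (Subgroup.commutator_mono ih ih).trans (commutator_wreath_le hw _)

/-- The derived series of the base of the wreath product. -/
theorem derivedSeries_base_le (d : ℕ) (p : (I → D) × PUnit.{1})
    (hp : p ∈ derivedSeries ((I → D) × PUnit.{1}) d) (i : I) : p.1 i ∈ derivedSeries D d := by
  induction d generalizing p with
  | zero => simp
  | succ d ih =>
    rw [derivedSeries_succ] at hp ⊢
    let Y : Subgroup ((I → D) × PUnit.{1}) :=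
      { carrier := {q | q.1 i ∈ ⁅derivedSeries D d, derivedSeries D d⁆}
        mul_mem' := fun {a b} ha hb => by
          change a.1 i * b.1 i ∈ ⁅derivedSeries D d, derivedSeries D d⁆
          exact mul_mem ha hb
        one_mem' := by
          change (1 : D) ∈ ⁅derivedSeries D d, derivedSeries D d⁆
          exact one_mem _
        inv_mem' := fun {a} ha => by
          change (a.1 i)⁻¹ ∈ ⁅derivedSeries D d, derivedSeries D d⁆
          exact inv_mem ha }
    have hle : ⁅derivedSeries ((I → D) × PUnit.{1}) d, derivedSeries ((I → D) × PUnit.{1}) d⁆ ≤ Y := by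
      rw [Subgroup.commutator_le]
      intro a ha b hb
      have h1 := ih a ha
      have h2 := ih b hb
      have h3 : (⁅a, b⁆ : (I → D) × PUnit.{1}).1 i = ⁅a.1 i, b.1 i⁆ := by
        simp [commutatorElement_def]
      change (⁅a, b⁆ : (I → D) × PUnit.{1}).1 i ∈ ⁅derivedSeries D d, derivedSeries D d⁆
      rw [h3]
      exact Subgroup.commutator_mem_commutator h1 h2
    exact hle hp

/-- The upper bound on the derived length. -/
theorem dser_wreath_eq_bot (hw : IsWreath c π) (T : Subgroup (Perm I)) {k j : ℕ}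
    (hT : derivedSeries T k = ⊥) (hD : derivedSeries D j = ⊥) :
    dser (wreathSub hw T) (k + j) = ⊥ := by
  rw [derivedSeries_eq_bot_iff] at hT
  -- after `k` steps we are in the base
  have h1 : dser (wreathSub hw T) k ≤ c.range := by
    refine (dser_wreath_le hw T k).trans ?_
    rw [hT]
    rintro _ ⟨n, t, ht, rfl⟩
    rw [Subgroup.mem_bot] at ht
    rw [ht, map_one, mul_one]
    exact ⟨n, rfl⟩
  have h2 : ∀ d, dser (wreathSub hw T) (k + d) ≤ dser c.range d := by
    intro d
    induction d with
    | zero => exact h1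
    | succ d ih =>
      rw [← add_assoc, dser_succ, dser_succ]
      exact Subgroup.commutator_mono ih ih
  have h3 : dser c.range j = ⊥ := by
    rw [MonoidHom.range_eq_map, ← dser_map, dser_top]
    have h4 : derivedSeries ((I → D) × PUnit.{1}) j = ⊥ := by
      rw [eq_bot_iff]
      intro p hp
      rw [Subgroup.mem_bot]
      refine Prod.ext ?_ (Subsingleton.elim _ _)
      funext i
      have h5 := derivedSeries_base_le j p hp i
      rw [hD, Subgroup.mem_bot] at h5
      exact h5
    rw [h4, Subgroup.map_bot]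
  rw [eq_bot_iff, ← h3]
  exact h2 j

end Upper

end Cfsg.Agent.Lib.DerLen.Wreath
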