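import Mathlib
import Cfsg.Agent.Lib.DerLen.Wreath

/-!
# Lower bound for the derived length of wreath-type groups
-/

set_option autoImplicit false
set_option linter.unusedSectionVars false

namespace Cfsg.Agent.Lib.DerLen.Lower

open Equiv Cfsg.Agent.Lib.OrthSyl.Core Cfsg.Agent.Lib.DerLen.Basic Cfsg.Agent.Lib.DerLen.Wreath
open scoped commutatorElement

variable {G D I : Type*} [Group G] [Group D] [Fintype I] [DecidableEq I]
  {c : (I → D) × PUnit.{1} →* G} {π : Perm I →* G}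

theorem inv_apply_of_fix {s : Perm I} {i : I} (h : s i = i) : s⁻¹ i = i := by
  rw [Perm.inv_eq_iff_eq]
  exact h.symm

/-- The elements of the wreath-type group which are supported on `S`. -/
def GS (hw : IsWreath c π) (S : Finset I) : Subgroup G where
  carrier := {g | ∃ n s, g = c n * π s ∧ (∀ i, i ∉ S → n.1 i = 1) ∧ ∀ i, i ∉ S → s i = i}
  mul_mem' := by
    rintro _ _ ⟨n, s, rfl, hn, hs⟩ ⟨m, t, rfl, hm, ht⟩
    refine ⟨n * (fun i => m.1 (s⁻¹ i), m.2), s * t, ?_, ?_, ?_⟩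
    · rw [map_mul, map_mul, ← hw s m]
      group
    · intro i hi
      change n.1 i * m.1 (s⁻¹ i) = 1
      rw [hn i hi, inv_apply_of_fix (hs i hi), hm i hi, one_mul]
    · intro i hi
      rw [Perm.mul_apply, ht i hi, hs i hi]
  one_mem' := ⟨1, 1, by simp, fun _ _ => rfl, fun _ _ => rfl⟩
  inv_mem' := by
    rintro _ ⟨n, s, rfl, hn, hs⟩
    refine ⟨(fun i => n⁻¹.1 (s i), n⁻¹.2), s⁻¹, ?_, ?_, ?_⟩
    · have h := hw s⁻¹ n⁻¹
      simp only [inv_inv] at h
      rw [← h, map_inv, map_inv]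
      group
    · intro i hi
      change (n.1 (s i))⁻¹ = 1
      rw [hs i hi, hn i hi, inv_one]
    · intro i hi
      exact inv_apply_of_fix (hs i hi)

theorem GS_mono (hw : IsWreath c π) {S S' : Finset I} (h : S ⊆ S') : GS hw S ≤ GS hw S' := by
  rintro _ ⟨n, s, rfl, hn, hs⟩
  exact ⟨n, s, rfl, fun i hi => hn i (fun h' => hi (h h')), fun i hi => hs i (fun h' => hi (h h'))⟩

/-- The relation between `s` and a function supported off `S`. -/
theorem move_trivial {S₁ S₂ : Finset I} (hd : Disjoint S₁ S₂) (hw : IsWreath c π)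
    {m : (I → D) × PUnit.{1}} {s : Perm I}
    (hm : ∀ i, i ∉ S₂ → m.1 i = 1) (hs : ∀ i, i ∉ S₁ → s i = i) :
    π s * c m = c m * π s := by
  rw [move hw]
  congr 2
  refine Prod.ext ?_ rfl
  funext i
  change m.1 (s⁻¹ i) = m.1 i
  by_cases hi : i ∈ S₁
  · have hi2 : i ∉ S₂ := Finset.disjoint_left.1 hd hi
    rw [hm i hi2]
    have hy : s⁻¹ i ∈ S₁ := by
      by_contra hcon
      have h1 := hs _ hcon
      have h5 : s (s⁻¹ i) = i := by simp
      rw [h5] at h1
      rw [← h1] at hcon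
      exact hcon hi
    exact hm _ (Finset.disjoint_left.1 hd hy)
  · rw [inv_apply_of_fix (hs i hi)]

/-- Disjoint supports commute. -/
theorem GS_commute (hw : IsWreath c π) {S₁ S₂ : Finset I} (hd : Disjoint S₁ S₂) {a b : G}
    (ha : a ∈ GS hw S₁) (hb : b ∈ GS hw S₂) : a * b = b * a := by
  obtain ⟨n, s, rfl, hn, hs⟩ := ha
  obtain ⟨m, t, rfl, hm, ht⟩ := hb
  have h1 := move_trivial hd hw hm hs
  have h2 := move_trivial hd.symm hw hn ht
  have h3 : c n * c m = c m * c n := by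
    rw [← map_mul, ← map_mul]
    congr 1
    refine Prod.ext ?_ rfl
    funext i
    change n.1 i * m.1 i = m.1 i * n.1 i
    by_cases hi : i ∈ S₁
    · rw [hm i (Finset.disjoint_left.1 hd hi), one_mul, mul_one]
    · rw [hn i hi, one_mul, mul_one]
  have h4 : π s * π t = π t * π s := by
    rw [← map_mul, ← map_mul]
    congr 1
    have hdisj : Perm.Disjoint s t := by
      intro i
      by_cases hi : i ∈ S₁
      · right
        exact ht i (Finset.disjoint_left.1 hd hi)
      · left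
        exact hs i hi
    exact hdisj.commute
  calc c n * π s * (c m * π t) = (c n * c m) * (π s * π t) := by
        rw [mul_assoc, ← mul_assoc (π s), h1]
        group
    _ = (c m * c n) * (π t * π s) := by rw [h3, h4]
    _ = c m * π t * (c n * π s) := by
        rw [mul_assoc (c m), mul_assoc (c m), ← mul_assoc (π t), h2]
        group

/-- Disjoint supports intersect trivially. -/
theorem GS_inter (hw : IsWreath c π)
    (hinj : ∀ n n' s s', c n * π s = c n' * π s' → n = n' ∧ s = s')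
    {S₁ S₂ : Finset I} (hd : Disjoint S₁ S₂) {a : G} (h1 : a ∈ GS hw S₁) (h2 : a ∈ GS hw S₂) : a = 1 := by
  obtain ⟨n, s, rfl, hn, hs⟩ := h1
  obtain ⟨m, t, h3, hm, ht⟩ := h2
  obtain ⟨rfl, rfl⟩ := hinj _ _ _ _ h3
  have h4 : n = 1 := by
    refine Prod.ext ?_ rfl
    funext i
    by_cases hi : i ∈ S₁
    · exact hm i (Finset.disjoint_left.1 hd hi)
    · exact hn i hi
  have h5 : s = 1 := by
    ext i
    by_cases hi : i ∈ S₁
    · rw [ht i (Finset.disjoint_left.1 hd hi)]
      rfl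
    · rw [hs i hi]
      rfl
  rw [h4, h5, map_one, map_one, one_mul]

/-- Conjugation by a permutation. -/
theorem GS_conj (hw : IsWreath c π) {S S' : Finset I} (σ : Perm I) (h : ∀ i, i ∈ S' ↔ σ⁻¹ i ∈ S)
    {a : G} (ha : a ∈ GS hw S) : π σ * a * (π σ)⁻¹ ∈ GS hw S' := by
  obtain ⟨n, s, rfl, hn, hs⟩ := ha
  refine ⟨(fun i => n.1 (σ⁻¹ i), n.2), σ * s * σ⁻¹, ?_, ?_, ?_⟩
  · rw [← hw σ n, map_mul, map_mul, map_inv]
    group
  · intro i hi
    exact hn _ (fun h' => hi ((h i).2 h'))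
  · intro i hi
    rw [Perm.mul_apply, Perm.mul_apply, hs _ (fun h' => hi ((h i).2 h'))]
    simp

theorem comm_mul_mul {u v a b : G} (hua : Commute u a) (hub : Commute u b) (hva : Commute v a)
    (hvb : Commute v b) : ⁅u * a, v * b⁆ = ⁅u, v⁆ * ⁅a, b⁆ := by
  have h1 : u * a * (v * b) = u * v * (a * b) := by
    rw [mul_assoc u a, ← mul_assoc a v, ← hva.eq]
    group
  have h2 : v * b * (u * a) = v * u * (b * a) := by
    rw [mul_assoc v b, ← mul_assoc b u, ← hub.eq]
    group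
  have hv : Commute v ⁅a, b⁆ := by
    rw [commutatorElement_def]
    exact ((hva.mul_right hvb).mul_right hva.inv_right).mul_right hvb.inv_right
  have hu : Commute u ⁅a, b⁆ := by
    rw [commutatorElement_def]
    exact ((hua.mul_right hub).mul_right hua.inv_right).mul_right hub.inv_right
  have h3 : Commute (v * u)⁻¹ ⁅a, b⁆ := (hv.mul_left hu).inv_left
  have h4 : ∀ x y : G, ⁅x, y⁆ = x * y * (y * x)⁻¹ := by
    intro x y
    rw [commutatorElement_def]
    group
  rw [h4 (u * a), h1, h2, mul_inv_rev, mul_assoc, ← mul_assoc (a * b), ← h4 a b, ← h3.eq, h4 u v]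
  group

theorem normalizes_of_commute {X Y : Subgroup G} (h : ∀ x ∈ X, ∀ y ∈ Y, x * y = y * x) :
    X ≤ Subgroup.normalizer (Y : Set G) := by
  intro x hx
  rw [Subgroup.mem_normalizer_iff]
  intro y
  constructor
  · intro hy
    rw [h x hx y hy, mul_inv_cancel_right]
    exact hy
  · intro hy
    have h3 := h x⁻¹ (X.inv_mem hx) _ hy
    have h5 : y * x⁻¹ = (x * y * x⁻¹) * x⁻¹ := by
      rw [← h3]
      group
    have h6 := mul_right_cancel h5
    rw [h6]
    exact hy

/-- The property to be proved by induction. -/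
def P (hw : IsWreath c π) (S : Finset I) (d : ℕ) : Prop :=
  ∃ X : Subgroup G, IsPGroup 2 X ∧ X ≤ GS hw S ∧ dser X d ≠ ⊥

/-- The inductive step. -/
theorem step (hw : IsWreath c π)
    (hinj : ∀ n n' s s', c n * π s = c n' * π s' → n = n' ∧ s = s')
    {S₁ S₂ : Finset I} (hd : Disjoint S₁ S₂) (σ : Perm I) (hσ2 : σ * σ = 1)
    (h12 : ∀ i, i ∈ S₂ ↔ σ⁻¹ i ∈ S₁) (hσ0 : ∀ i, i ∉ S₁ ∪ S₂ → σ i = i) {d : ℕ}
    (hP : P hw S₁ d) : P hw (S₁ ∪ S₂) (d + 1) := by
  classical
  obtain ⟨X, hX, hXS, hne⟩ := hP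
  set τ := π σ with hτ
  have hτ2 : τ * τ = 1 := by
    rw [hτ, ← map_mul, hσ2, map_one]
  have hτinv : τ⁻¹ = τ := inv_eq_of_mul_eq_one_left hτ2
  let X₂ : Subgroup G := X.map (MulAut.conj τ).toMonoidHom
  have hX₂mem : ∀ x ∈ X, τ * x * τ⁻¹ ∈ X₂ := fun x hx => ⟨x, hx, rfl⟩
  have hX₂S : X₂ ≤ GS hw S₂ := by
    rintro _ ⟨x, hx, rfl⟩
    exact GS_conj hw σ h12 (hXS hx)
  have hcomm : ∀ x ∈ X, ∀ y ∈ X₂, x * y = y * x := fun x hx y hy =>
    GS_commute hw hd (hXS hx) (hX₂S hy)
  have hinter : ∀ x ∈ X, x ∈ X₂ → x = 1 := fun x hx hx' =>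
    GS_inter hw hinj hd (hXS hx) (hX₂S hx')
  have hX₂p : IsPGroup 2 X₂ := hX.map _
  let B : Subgroup G := X ⊔ X₂
  have hBp : IsPGroup 2 B :=
    IsPGroup.to_sup_of_normal_right' hX hX₂p (normalizes_of_commute hcomm)
  have hBmap : B.map (MulAut.conj τ).toMonoidHom = B := by
    have h3 : X₂.map (MulAut.conj τ).toMonoidHom = X := by
      rw [Subgroup.map_map]
      have h4 : (MulAut.conj τ).toMonoidHom.comp (MulAut.conj τ).toMonoidHom = MonoidHom.id G := by
        ext x
        change τ * (τ * x * τ⁻¹) * τ⁻¹ = x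
        rw [hτinv]
        calc τ * (τ * x * τ) * τ = (τ * τ) * x * (τ * τ) := by group
          _ = x := by rw [hτ2]; group
      rw [h4, Subgroup.map_id]
    change (X ⊔ X₂).map _ = X ⊔ X₂
    rw [Subgroup.map_sup, h3, sup_comm]
  have hτnorm : Subgroup.zpowers τ ≤ Subgroup.normalizer (B : Set G) := by
    rw [Subgroup.zpowers_le, Subgroup.mem_normalizer_iff]
    intro h
    constructor
    · intro hh
      rw [← hBmap]
      exact ⟨h, hh, rfl⟩
    · intro hh
      have h3 : τ * h * τ⁻¹ ∈ B.map (MulAut.conj τ).toMonoidHom := by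
        rw [hBmap]
        exact hh
      obtain ⟨k, hk, hk2⟩ := h3
      have h4 : k = h := by
        have h5 : τ * k * τ⁻¹ = τ * h * τ⁻¹ := hk2
        exact mul_left_cancel (mul_right_cancel h5)
      rwa [← h4]
  have hτp : IsPGroup 2 (Subgroup.zpowers τ) := by
    rintro ⟨x, k, rfl⟩
    refine ⟨1, ?_⟩
    apply Subtype.ext
    change (τ ^ k) ^ (2 ^ 1) = 1
    rw [pow_one, ← zpow_natCast, ← _root_.zpow_mul, mul_comm, _root_.zpow_mul, zpow_natCast, pow_two, hτ2,
      _root_.one_zpow]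
  let W : Subgroup G := Subgroup.zpowers τ ⊔ B
  have hWp : IsPGroup 2 W := IsPGroup.to_sup_of_normal_right' hτp hBp hτnorm
  have hτW : τ ∈ W := (le_sup_left : Subgroup.zpowers τ ≤ W) (Subgroup.mem_zpowers τ)
  have hXW : X ≤ W := le_sup_left.trans (le_sup_right : B ≤ W)
  have hWS : W ≤ GS hw (S₁ ∪ S₂) := by
    refine sup_le ?_ (sup_le ((hXS).trans (GS_mono hw Finset.subset_union_left))
      (hX₂S.trans (GS_mono hw Finset.subset_union_right)))
    rw [Subgroup.zpowers_le]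
    exact ⟨1, σ, by simp [hτ], fun _ _ => rfl, hσ0⟩
  -- the main claim
  have hclaim : ∀ j, ∀ x ∈ dser X j, ∃ y ∈ X₂, x * y ∈ dser W (j + 1) := by
    intro j
    induction j with
    | zero =>
      intro x hx
      refine ⟨τ * x⁻¹ * τ⁻¹, hX₂mem _ (X.inv_mem hx), ?_⟩
      have h3 : x * (τ * x⁻¹ * τ⁻¹) = ⁅x, τ⁆ := by
        rw [commutatorElement_def]
        group
      rw [h3]
      exact Subgroup.commutator_mem_commutator (hXW hx) hτW
    | succ j ih =>
      let L : Subgroup G :=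
        { carrier := {x | x ∈ X ∧ ∃ y ∈ X₂, x * y ∈ dser W (j + 1 + 1)}
          mul_mem' := by
            rintro a b ⟨ha, y, hy, hay⟩ ⟨hb, y', hy', hby⟩
            refine ⟨X.mul_mem ha hb, y * y', X₂.mul_mem hy hy', ?_⟩
            have h3 : a * b * (y * y') = (a * y) * (b * y') := by
              calc a * b * (y * y') = a * (b * y) * y' := by group
                _ = a * (y * b) * y' := by rw [hcomm b hb y hy]
                _ = a * y * (b * y') := by group
            rw [h3]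
            exact mul_mem hay hby
          one_mem' := ⟨X.one_mem, 1, X₂.one_mem, by
            rw [mul_one]
            exact one_mem _⟩
          inv_mem' := by
            rintro a ⟨ha, y, hy, hay⟩
            refine ⟨X.inv_mem ha, y⁻¹, X₂.inv_mem hy, ?_⟩
            have h3 : a⁻¹ * y⁻¹ = (a * y)⁻¹ := by
              rw [mul_inv_rev, ← mul_inv_rev, ← mul_inv_rev, hcomm a ha y hy]
            rw [h3]
            exact inv_mem hay }
      have hle : dser X (j + 1) ≤ L := by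
        rw [dser_succ, Subgroup.commutator_le]
        intro u hu v hv
        have huX := dser_le X j hu
        have hvX := dser_le X j hv
        obtain ⟨yu, hyu, huy⟩ := ih u hu
        obtain ⟨yv, hyv, hvy⟩ := ih v hv
        refine ⟨X.mul_mem (X.mul_mem (X.mul_mem huX hvX) (X.inv_mem huX)) (X.inv_mem hvX), ⁅yu, yv⁆,
          ?_, ?_⟩
        · rw [commutatorElement_def]
          exact X₂.mul_mem (X₂.mul_mem (X₂.mul_mem hyu hyv) (X₂.inv_mem hyu)) (X₂.inv_mem hyv)
        · rw [← comm_mul_mul (hcomm u huX yu hyu) (hcomm u huX yv hyv) (hcomm v hvX yu hyu)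
            (hcomm v hvX yv hyv)]
          exact Subgroup.commutator_mem_commutator huy hvy
      intro x hx
      exact (hle hx).2
  refine ⟨W, hWp, hWS, ?_⟩
  intro hbot
  obtain ⟨x, hx, hx1⟩ := (Subgroup.bot_or_exists_ne_one (dser X d)).resolve_left hne
  obtain ⟨y, hy, hxy⟩ := hclaim d x hx
  rw [hbot, Subgroup.mem_bot] at hxy
  have h3 : x = y⁻¹ := eq_inv_of_mul_eq_one_left hxy
  apply hx1
  apply hinter x (dser_le X d hx)
  rw [h3]
  exact X₂.inv_mem hy

/-- The base of the induction. -/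
theorem base (hw : IsWreath c π)
    (hinj : ∀ n n' s s', c n * π s = c n' * π s' → n = n' ∧ s = s') (hD : IsPGroup 2 D)
    {x y : D} (hxy : ⁅x, y⁆ ≠ 1) (i : I) : P hw {i} 1 := by
  classical
  let ι : D →* G := c.comp ((MonoidHom.inl _ _).comp (MonoidHom.mulSingle (fun _ => D) i))
  have hι : ∀ u, ι u = c ((Pi.mulSingle i u : I → D), (1 : PUnit.{1})) := fun _ => rfl
  refine ⟨ι.range, ?_, ?_, ?_⟩
  · exact hD.of_surjective ι.rangeRestrict ι.rangeRestrict_surjective
  · rintro _ ⟨u, rfl⟩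
    refine ⟨((Pi.mulSingle i u : I → D), (1 : PUnit.{1})), 1, by simp [hι], ?_, fun _ _ => rfl⟩
    intro j hj
    have hji : j ≠ i := by simpa using hj
    change (Pi.mulSingle i u : I → D) j = 1
    rw [Pi.mulSingle_eq_of_ne hji]
  · intro hbot
    have h3 : ι ⁅x, y⁆ ∈ dser ι.range 1 := by
      rw [map_commutatorElement, dser_succ]
      exact Subgroup.commutator_mem_commutator ⟨x, rfl⟩ ⟨y, rfl⟩
    rw [hbot, Subgroup.mem_bot] at h3
    apply hxy
    have h4 : c ((Pi.mulSingle i ⁅x, y⁆ : I → D), (1 : PUnit.{1})) * π 1 = c 1 * π 1 := by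
      rw [← hι, h3, map_one, map_one]
    have h5 := (hinj _ _ _ _ h4).1
    have h6 := congrFun (congrArg Prod.fst h5) i
    simpa using h6

theorem exists_swap_perm {S₁ S₂ : Finset I} (hd : Disjoint S₁ S₂) (hc : S₁.card = S₂.card) :
    ∃ σ : Perm I, σ * σ = 1 ∧ (∀ i, i ∈ S₂ ↔ σ⁻¹ i ∈ S₁) ∧ ∀ i, i ∉ S₁ ∪ S₂ → σ i = i := by
  classical
  let e : S₁ ≃ S₂ := Finset.equivOfCardEq hc
  let f : I → I := fun i => if h : i ∈ S₁ then (e ⟨i, h⟩).1 else if h' : i ∈ S₂ then (e.symm ⟨i, h'⟩).1 else i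
  have hf1 : ∀ i (h : i ∈ S₁), f i = (e ⟨i, h⟩).1 := fun i h => dif_pos h
  have hf2 : ∀ i (h : i ∈ S₂), f i = (e.symm ⟨i, h⟩).1 := by
    intro i h
    have h1 : i ∉ S₁ := Finset.disjoint_right.1 hd h
    simp only [f, dif_neg h1, dif_pos h]
  have hf3 : ∀ i, i ∉ S₁ → i ∉ S₂ → f i = i := by
    intro i h h'
    simp only [f, dif_neg h, dif_neg h']
  have hinv : Function.Involutive f := by
    intro i
    by_cases h : i ∈ S₁
    · rw [hf1 i h, hf2 _ (e ⟨i, h⟩).2]
      simp
    · by_cases h' : i ∈ S₂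
      · rw [hf2 i h', hf1 _ (e.symm ⟨i, h'⟩).2]
        simp
      · rw [hf3 i h h', hf3 i h h']
  have hinv' : hinv.toPerm * hinv.toPerm = 1 := by
    ext i
    exact hinv i
  have hinv2 : (hinv.toPerm)⁻¹ = hinv.toPerm := inv_eq_of_mul_eq_one_left hinv'
  refine ⟨hinv.toPerm, hinv', ?_, ?_⟩
  · intro i
    rw [hinv2]
    change i ∈ S₂ ↔ f i ∈ S₁
    constructor
    · intro h
      rw [hf2 i h]
      exact (e.symm ⟨i, h⟩).2
    · intro h
      by_cases h1 : i ∈ S₁
      · rw [hf1 i h1] at h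
        exact absurd h (Finset.disjoint_right.1 hd (e ⟨i, h1⟩).2)
      · by_cases h2 : i ∈ S₂
        · exact h2
        · rw [hf3 i h1 h2] at h
          exact absurd h h1
  · intro i hi
    rw [Finset.mem_union, not_or] at hi
    exact hf3 i hi.1 hi.2

theorem exists_P (hw : IsWreath c π)
    (hinj : ∀ n n' s s', c n * π s = c n' * π s' → n = n' ∧ s = s') (hD : IsPGroup 2 D)
    {x y : D} (hxy : ⁅x, y⁆ ≠ 1) (k : ℕ) : ∀ S : Finset I, S.card = 2 ^ k → P hw S (k + 1) := by
  classical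
  induction k with
  | zero =>
    intro S hS
    rw [pow_zero, Finset.card_eq_one] at hS
    obtain ⟨i, rfl⟩ := hS
    exact base hw hinj hD hxy i
  | succ k ih =>
    intro S hS
    obtain ⟨S₁, hS₁, hc₁⟩ := Finset.exists_subset_card_eq (s := S) (n := 2 ^ k) (by
      rw [hS, pow_succ]
      have : 0 < 2 ^ k := by positivity
      omega)
    have hS₂ : (S \ S₁).card = 2 ^ k := by
      rw [Finset.card_sdiff_of_subset hS₁, hS, hc₁, pow_succ]
      omega
    have hd : Disjoint S₁ (S \ S₁) := Finset.disjoint_sdiff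
    obtain ⟨σ, hσ2, h12, hσ0⟩ := exists_swap_perm hd (hc₁.trans hS₂.symm)
    have h := step hw hinj hd σ hσ2 h12 hσ0 (ih S₁ hc₁)
    rwa [Finset.union_sdiff_of_subset hS₁] at h

/-- The lower bound. -/
theorem exists_pgroup (hw : IsWreath c π)
    (hinj : ∀ n n' s s', c n * π s = c n' * π s' → n = n' ∧ s = s') (hD : IsPGroup 2 D)
    {x y : D} (hxy : ⁅x, y⁆ ≠ 1) {k : ℕ} (hk : 2 ^ k ≤ Fintype.card I) :
    ∃ X : Subgroup G, IsPGroup 2 X ∧ dser X (k + 1) ≠ ⊥ := by
  classical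
  obtain ⟨S, _, hS⟩ := Finset.exists_subset_card_eq (s := (Finset.univ : Finset I)) (n := 2 ^ k) (by
    simpa using hk)
  obtain ⟨X, h1, _, h3⟩ := exists_P hw hinj hD hxy k S hS
  exact ⟨X, h1, h3⟩

end Cfsg.Agent.Lib.DerLen.Lower
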